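import Cfsg.Agent.H860.JM.Cj

/-!
# Conjugation of the sets `F_w` (helper795, S5580, JM-F11)
-/

set_option autoImplicit false

namespace Cfsg.Agent.H795.JM

open Cfsg.Agent.H860.JM

variable {G : Type*} [Group G] {Γ : Geom G}

theorem cj_inv_cj (g : G) (P : Subgroup G) : cj g⁻¹ (cj g P) = P := by
  rw [cj_cj, inv_mul_cancel, cj_eq_iff]
  exact Subgroup.one_mem _

theorem TyA_cj (hL : ∀ g D, Γ.Ln D → Γ.Ln (cj g D)) (g : G) {a b : G} (h : TyA Γ a b) :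
    TyA Γ (g * a * g⁻¹) (g * b * g⁻¹) := by
  obtain ⟨D, h1, h2, h3⟩ := h
  refine ⟨cj g D, hL g D h1, mem_cj.2 ?_, mem_cj.2 ?_⟩
  · have : g⁻¹ * (g * a * g⁻¹) * g = a := by group
    rw [this]; exact h2
  · have : g⁻¹ * (g * b * g⁻¹) * g = b := by group
    rw [this]; exact h3

theorem Fs_cj (hA : ∀ g u, Γ.A u → Γ.A (g * u * g⁻¹)) (g : G) {P : Subgroup G} {w v : G}
    (h : v ∈ Fs Γ P w) : g * v * g⁻¹ ∈ Fs Γ (cj g P) (g * w * g⁻¹) := by
  obtain ⟨h1, h2, h3⟩ := h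
  refine ⟨mem_cj.2 ?_, ?_, h3.imp ?_ fun h => ⟨hA _ _ h.1, ?_⟩⟩
  · have : g⁻¹ * (g * v * g⁻¹) * g = v := by group
    rw [this]; exact h1
  · calc g * v * g⁻¹ * (g * w * g⁻¹) = g * (v * w) * g⁻¹ := by group
      _ = g * (w * v) * g⁻¹ := by rw [h2]
      _ = _ := by group
  · rintro rfl
    group
  · have : g * v * g⁻¹ * (g * w * g⁻¹) = g * (v * w) * g⁻¹ := by group
    rw [this]; exact hA _ _ h.2

theorem Fs_cj_iff (hA : ∀ g u, Γ.A u → Γ.A (g * u * g⁻¹)) (g : G) {P : Subgroup G} {w v : G} :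
    v ∈ Fs Γ (cj g P) (g * w * g⁻¹) ↔ g⁻¹ * v * g ∈ Fs Γ P w := by
  constructor
  · intro h
    have h1 := Fs_cj hA g⁻¹ h
    rw [cj_inv_cj] at h1
    have e1 : g⁻¹ * (g * w * g⁻¹) * g⁻¹⁻¹ = w := by group
    rw [e1, inv_inv] at h1
    exact h1
  · intro h
    have h1 := Fs_cj hA g h
    have e1 : g * (g⁻¹ * v * g) * g⁻¹ = v := by group
    rw [e1] at h1
    exact h1

theorem Fs_ncard (hA : ∀ g u, Γ.A u → Γ.A (g * u * g⁻¹)) (g : G) (P : Subgroup G) (w : G) :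
    (Fs Γ (cj g P) (g * w * g⁻¹)).ncard = (Fs Γ P w).ncard := by
  have h : Fs Γ (cj g P) (g * w * g⁻¹) = (fun v => g * v * g⁻¹) '' Fs Γ P w := by
    ext v
    rw [Fs_cj_iff hA]
    constructor
    · intro h
      exact ⟨_, h, by group⟩
    · rintro ⟨u, hu, rfl⟩
      have e1 : g⁻¹ * (g * u * g⁻¹) * g = u := by group
      rw [e1]; exact hu
  rw [h]
  exact Set.ncard_image_of_injective _ fun a b hab => mul_left_cancel (mul_right_cancel hab)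

theorem IsX_cj (hA : ∀ g u, Γ.A u → Γ.A (g * u * g⁻¹)) (hL : ∀ g D, Γ.Ln D → Γ.Ln (cj g D)) (g : G)
    {P : Subgroup G} {w x : G} (h : IsX Γ P w x) : IsX Γ (cj g P) (g * w * g⁻¹) (g * x * g⁻¹) where
  mem := Fs_cj hA g h.mem
  ne h1 := h.ne (by
    have h2 : x = g⁻¹ * (g * x * g⁻¹) * g := by group
    rw [h2, h1]; group)
  tyA := TyA_cj hL g h.tyA

theorem Act_cj (hA : ∀ g u, Γ.A u → Γ.A (g * u * g⁻¹)) (g : G)
    {P : Subgroup G} {w : G} (h : Act Γ P w) : Act Γ (cj g P) (g * w * g⁻¹) where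
  mem := by
    rw [normalizer_cj, mem_cj]
    have : g⁻¹ * (g * w * g⁻¹) * g = w := by group
    rw [this]; exact h.mem
  not_mem := by
    rw [mem_cj]
    have : g⁻¹ * (g * w * g⁻¹) * g = w := by group
    rw [this]; exact h.not_mem
  A := hA _ _ h.A

theorem KB_cj (hA : ∀ g u, Γ.A u → Γ.A (g * u * g⁻¹)) (hL : ∀ g D, Γ.Ln D → Γ.Ln (cj g D)) (g : G)
    {P : Subgroup G} {w : G} (h : KB Γ P w) : KB Γ (cj g P) (g * w * g⁻¹) where
  act := Act_cj hA g h.act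
  card := by rw [Fs_ncard hA]; exact h.card
  ex := by
    obtain ⟨x, h1, h2, h3⟩ := h.ex
    refine ⟨g * x * g⁻¹, IsX_cj hA hL g h1, fun y hy => ?_, fun v hv => ?_⟩
    · have h4 := IsX_cj hA hL g⁻¹ hy
      rw [cj_inv_cj] at h4
      have e1 : g⁻¹ * (g * w * g⁻¹) * g⁻¹⁻¹ = w := by group
      rw [e1] at h4
      rw [← h2 _ h4]
      group
    · have h4 := TyA_cj hL g (h3 _ ((Fs_cj_iff hA g).1 hv))
      have e1 : g * (g⁻¹ * v * g) * g⁻¹ = v := by group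
      rwa [e1] at h4

end Cfsg.Agent.H795.JM
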