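import Cfsg.Agent.H795.JM.F11A

/-!
# The fact `F11`: the elements of kind B (helper795, S5580, JM-F11)
-/

set_option autoImplicit false

open Cfsg

namespace Cfsg.Agent.H795.JM

open Cfsg.Agent.H860.JM
open Cfsg.Agent.J4.Invol (EJ s d)
open Cfsg.Agent.J4.Rep112 Cfsg.Agent.J4.Pres Cfsg.Agent.J4.M24Hom Cfsg.Agent.J4.Nodes Cfsg.Agent.J4.Beta
open Cfsg.Agent.J4.Classes Cfsg.Agent.J4.ClassesData Cfsg.Agent.J4.ClassesAbs
open Cfsg.Agent.J4.M24InvolData Cfsg.Agent.J4.Lower Cfsg.Agent.SporadicStructure.M24El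
open Cfsg.Agent.H858 Cfsg.Agent.H858.VK Cfsg.Agent.H858.Data

/-- the group `Spor.J4` -/
local notation "𝒢" => Cfsg.Spor.J4

theorem phi_XM_V (v : ℕ) : phi XM * V v * (phi XM)⁻¹ = V (lin Ax v) := by
  apply rho_injective
  rw [map_mul, map_mul, map_inv, rho_V, rho_V]
  exact hyp.actX v

theorem el_P2 : Cfsg.Agent.SporadicStructure.M24El.el P2 = XM := by
  apply Subtype.ext
  rw [coe_el Cfsg.Agent.J4.M24Invol.ok_P2]
  ext1 p
  rw [Cfsg.Agent.SporadicA.GolayPerm.permOf_apply]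
  revert p
  decide +kernel

theorem el_P1_word : Cfsg.Agent.SporadicStructure.M24El.el P1 = wordG w1 := by
  rw [el_P1]
  rfl

theorem EJ_comm' {a b : 𝒢} (ha : a ∈ EJ) (hb : b ∈ EJ) : a * b = b * a :=
  Cfsg.Agent.J4.Invol.EJ_comm rho_injective a b ha hb

theorem Pt_EJ : geo.Pt EJ := ⟨1, (cj_eq_iff.2 (Subgroup.one_mem _)).symm⟩

/-- `x_w` is fixed by the elements of `M24` which commute with the image of `w` -/
theorem x_fixed (h9 : F9 geo) {w x e : 𝒢} {σ c : M24} (hw : KB geo EJ w) (hx : IsX geo EJ w x)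
    (he : e ∈ EJ) (hwe : w = e * phi σ) (hc : c * σ = σ * c) : phi c * x * (phi c)⁻¹ = x := by
  have hcj : cj (phi c) EJ = EJ := cj_eq_iff.2 (phi_mem c)
  have h1 := KB_cj geo_A_conj geo_L_conj (phi c) hw
  have h2 := IsX_cj geo_A_conj geo_L_conj (phi c) hx
  rw [hcj] at h1 h2
  refine (h9.x_eq EJ w _ x _ Pt_EJ hw h1 ?_ hx h2).symm
  have h3 : phi c * phi σ * (phi c)⁻¹ = phi σ := by
    rw [← map_mul, hc, map_mul]; group
  have h4 : w⁻¹ * (phi c * w * (phi c)⁻¹) =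
      phi σ⁻¹ * (e⁻¹ * (phi c * e * (phi c)⁻¹)) * (phi σ⁻¹)⁻¹ := by
    rw [hwe, map_inv, inv_inv]
    calc (e * phi σ)⁻¹ * (phi c * (e * phi σ) * (phi c)⁻¹) =
        (phi σ)⁻¹ * e⁻¹ * (phi c * e * (phi c)⁻¹) * (phi c * phi σ * (phi c)⁻¹) := by group
      _ = (phi σ)⁻¹ * e⁻¹ * (phi c * e * (phi c)⁻¹) * phi σ := by rw [h3]
      _ = _ := by group
  rw [h4]
  exact conj_mem (phi_mem _) (EJ.mul_mem (EJ.inv_mem he) (conj_mem (phi_mem c) he))

theorem wordG_comm {l m : List ℕ} (h : Nat.beq (wordP (l ++ m)) (wordP (m ++ l)) = true) :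
    wordG l * wordG m = wordG m * wordG l := by
  rw [← M24Norm.wordG_append, ← M24Norm.wordG_append]
  exact M24Norm.wordG_eq (Nat.eq_of_beq_eq_true h)

/-- a label fixed by the words of a list -/
theorem lin_fixed {v : ℕ} (hv : v < 2048) {l M : List ℕ} (hM : M = mat l)
    (h : phi (wordG l) * V v * (phi (wordG l))⁻¹ = V v) (hlt : ∀ a ∈ M, a < 2048) : lin M v = v := by
  have h1 := conj_V (isMat_word l) v
  rw [← hM, h] at h1
  exact (V_inj hv (lin_lt hlt v) h1).symm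

theorem cw1_lt : ∀ p ∈ cw1, ∀ a ∈ p.2, a < 2048 := by decide +kernel
theorem cw2_lt : ∀ p ∈ cw2, ∀ a ∈ p.2, a < 2048 := by decide +kernel

theorem cw1_mem {p : List ℕ × List ℕ} (hp : p ∈ cw1) :
    wordG p.1 * wordG w1 = wordG w1 * wordG p.1 ∧ p.2 = mat p.1 := by
  have h1 := cw1_check
  rw [List.all_eq_true] at h1
  have h2 := h1 p hp
  rcases hb : Nat.beq (wordP (p.1 ++ w1)) (wordP (w1 ++ p.1)) with _ | _
  · rw [hb] at h2; exact absurd h2 Bool.false_ne_true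
  · rw [hb, cond_true] at h2
    exact ⟨wordG_comm hb, by simpa using h2⟩

theorem cw2_mem {p : List ℕ × List ℕ} (hp : p ∈ cw2) :
    wordG p.1 * XM = XM * wordG p.1 ∧ p.2 = mat p.1 := by
  have h1 := cw2_check
  rw [List.all_eq_true] at h1
  have h2 := h1 p hp
  rcases hb : Nat.beq (wordP (p.1 ++ [0])) (wordP ([0] ++ p.1)) with _ | _
  · rw [hb] at h2; exact absurd h2 Bool.false_ne_true
  · rw [hb, cond_true] at h2
    have h3 := wordG_comm hb
    have h4 : wordG [0] = XM := by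
      show letG 0 * 1 = XM
      rw [mul_one]; rfl
    rw [h4] at h3
    exact ⟨h3, by simpa using h2⟩

/-- no label is fixed by the centralizer of the involution of type `1^8 2^8` -/
theorem no_fixed {v : ℕ} (hv : v < 2048) (h0 : v ≠ 0)
    (h : ∀ p ∈ cw1, phi (wordG p.1) * V v * (phi (wordG p.1))⁻¹ = V v) : False := by
  have h1 := cw1_fix
  rw [List.all_eq_true] at h1
  have h2 := h1 v (List.mem_range.2 hv)
  have e1 : Nat.beq v 0 = false := by rw [← Bool.not_eq_true, Nat.beq_eq]; exact h0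
  rw [e1, cond_false, List.any_eq_true] at h2
  obtain ⟨p, hp, h3⟩ := h2
  have h4 := lin_fixed hv (cw1_mem hp).2 (h p hp) (cw1_lt p hp)
  rw [h4, Nat.beq_refl] at h3
  exact absurd h3 Bool.false_ne_true

/-- the only label fixed by the centralizer of `XM` is `20` -/
theorem eq_of_fixed {v : ℕ} (hv : v < 2048) (h0 : v ≠ 0)
    (h : ∀ p ∈ cw2, phi (wordG p.1) * V v * (phi (wordG p.1))⁻¹ = V v) : v = 20 := by
  have h1 := cw2_fix
  rw [List.all_eq_true] at h1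
  have h2 := h1 v (List.mem_range.2 hv)
  have e1 : Nat.beq v 0 = false := by rw [← Bool.not_eq_true, Nat.beq_eq]; exact h0
  rw [e1, cond_false] at h2
  rcases hb : Nat.beq v 20 with _ | _
  · exfalso
    rw [hb, cond_false, List.any_eq_true] at h2
    obtain ⟨p, hp, h3⟩ := h2
    have h4 := lin_fixed hv (cw2_mem hp).2 (h p hp) (cw2_lt p hp)
    rw [h4, Nat.beq_refl] at h3
    exact absurd h3 Bool.false_ne_true
  · exact Nat.eq_of_beq_eq_true hb

/-- `F_w` for `w = e XM` -/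
theorem Fs_eq {w e : 𝒢} (hw : KB geo EJ w) (he : e ∈ EJ) (hwe : w = e * phi XM) (v : 𝒢) :
    v ∈ Fs geo EJ w ↔ ∃ f ∈ fb, v = V f := by
  classical
  have hws : w * w = 1 := by
    obtain ⟨g, hg⟩ := isConj_iff.1 (show IsConj s w from hw.act.A)
    have h1 : s * s = 1 := Cfsg.Agent.J4.Invol.EJ_sq rho_injective s
      (Cfsg.Agent.J4.Invol.s_mem rho_injective)
    rw [← hg]
    calc g * s * g⁻¹ * (g * s * g⁻¹) = g * (s * s) * g⁻¹ := by group
      _ = 1 := by rw [h1]; group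
  have hwi : w⁻¹ = w := inv_eq_of_mul_eq_one_left hws
  have hact : ∀ p, w * V p * w = V (lin Ax p) := by
    intro p
    have h1 : w * V p * w⁻¹ = e * (phi XM * V p * (phi XM)⁻¹) * e⁻¹ := by rw [hwe]; group
    rw [phi_XM_V, EJ_comm' he (V_mem _), mul_inv_cancel_right, hwi] at h1
    exact h1
  have hsub : V '' ((fb.toFinset : Finset ℕ) : Set ℕ) ⊆ Fs geo EJ w := by
    rintro _ ⟨f, hf, rfl⟩
    rw [Finset.mem_coe, List.mem_toFinset] at hf
    obtain ⟨hf1, hf2, p, hp⟩ := mem_fb hf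
    have h1 : V f = V p * (w * V p * w) := by rw [hact, ← V_xor, ← hp]
    have h1' : V f = w * V p * w * V p := by rw [hact, ← V_xor, Nat.xor_comm, ← hp]
    have h2 : V f * w = V p * w * V p := by
      rw [h1]
      calc V p * (w * V p * w) * w = V p * w * V p * (w * w) := by group
        _ = _ := by rw [hws, mul_one]
    have h3 : w * V f = V p * w * V p := by
      rw [h1']
      calc w * (w * V p * w * V p) = w * w * (V p * w * V p) := by group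
        _ = _ := by rw [hws, one_mul]
    refine ⟨V_mem f, h2.trans h3.symm, ?_⟩
    rcases Nat.eq_zero_or_pos f with h0 | h0
    · left; rw [h0, V_zero]
    · right
      refine ⟨geo_A_V hf1 h0.ne' hf2, ?_⟩
      rw [h2]
      have h4 := geo_A_conj (V p) w hw.act.A
      rwa [V_inv] at h4
  have hcard : (V '' ((fb.toFinset : Finset ℕ) : Set ℕ)).ncard = 32 := by
    rw [Set.InjOn.ncard_image, Set.ncard_coe_finset, List.toFinset_card_of_nodup fb_nodup]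
    · rfl
    · intro a ha b hb hab
      rw [Finset.mem_coe, List.mem_toFinset] at ha hb
      exact V_inj (mem_fb ha).1 (mem_fb hb).1 hab
  have hfin : (Fs geo EJ w).Finite := Set.finite_of_ncard_ne_zero (by rw [hw.card]; norm_num)
  have heq := Set.eq_of_subset_of_ncard_le hsub (by rw [hcard, hw.card]) hfin
  rw [← heq]
  constructor
  · rintro ⟨f, hf, rfl⟩
    rw [Finset.mem_coe, List.mem_toFinset] at hf
    exact ⟨f, hf, rfl⟩
  · rintro ⟨f, hf, rfl⟩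
    exact ⟨f, by rw [Finset.mem_coe, List.mem_toFinset]; exact hf, rfl⟩

/-- **The elements of kind B.** -/
theorem exists_frame (h9 : F9 geo)
    (hN : ∀ x ∈ Subgroup.normalizer (EJ : Set 𝒢), ∃ e ∈ EJ, ∃ k, x = e * phi k) {w x : 𝒢}
    (hw : KB geo EJ w) (hx : IsX geo EJ w x) : ∃ g : M24, x = phi g * V 20 * (phi g)⁻¹ ∧
      ∀ v, v ∈ Fs geo EJ w ↔ ∃ f ∈ fb, v = phi g * V f * (phi g)⁻¹ := by
  obtain ⟨e, he, σ, hwe⟩ := hN w hw.act.mem
  have hws : w * w = 1 := by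
    obtain ⟨g, hg⟩ := isConj_iff.1 (show IsConj s w from hw.act.A)
    have h1 : s * s = 1 := Cfsg.Agent.J4.Invol.EJ_sq rho_injective s
      (Cfsg.Agent.J4.Invol.s_mem rho_injective)
    rw [← hg]
    calc g * s * g⁻¹ * (g * s * g⁻¹) = g * (s * s) * g⁻¹ := by group
      _ = 1 := by rw [h1]; group
  have hσ : σ * σ = 1 := by
    have h1 : phi (σ * σ) = (e * (phi σ * e * (phi σ)⁻¹))⁻¹ := by
      rw [eq_inv_iff_mul_eq_one, map_mul]
      have h2 : e * phi σ * (e * phi σ) = 1 := by rw [← hwe]; exact hws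
      have h3 : e * (phi σ * e * (phi σ)⁻¹) * (phi σ * phi σ) = 1 := by
        rw [← h2]; group
      exact mul_eq_one_comm.1 h3
    have h2 : phi (σ * σ) ∈ EJ := by
      rw [h1]
      exact EJ.inv_mem (EJ.mul_mem he (conj_mem (phi_mem σ) he))
    exact phi_injective (by rw [map_one]; exact inf_eq_one _ h2 ⟨_, rfl⟩)
  have hσ1 : σ ≠ 1 := by
    rintro rfl
    apply hw.act.not_mem
    rw [hwe, map_one, mul_one]
    exact he
  obtain ⟨g, hg⟩ := Cfsg.Agent.J4.M24Invol.invol_conj σ hσ hσ1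
  have hcj : cj (phi g) EJ = EJ := cj_eq_iff.2 (phi_mem g)
  have hw0 := KB_cj geo_A_conj geo_L_conj (phi g) hw
  have hx0 := IsX_cj geo_A_conj geo_L_conj (phi g) hx
  rw [hcj] at hw0 hx0
  have he0 : phi g * e * (phi g)⁻¹ ∈ EJ := conj_mem (phi_mem g) he
  have hwe0 : phi g * w * (phi g)⁻¹ = phi g * e * (phi g)⁻¹ * phi (g * σ * g⁻¹) := by
    rw [hwe, map_mul, map_mul, map_inv]; group
  obtain ⟨v0, hv0, hxv⟩ := mem_EJ.1 hx0.mem.1
  have hv0' : v0 ≠ 0 := by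
    rintro rfl
    exact hx0.ne (by rw [hxv, V_zero])
  rcases hg with hg | hg
  · exfalso
    rw [hg, el_P1_word] at hwe0
    refine no_fixed hv0 hv0' fun p hp => ?_
    rw [← hxv]
    exact x_fixed h9 hw0 hx0 he0 hwe0 (cw1_mem hp).1
  · rw [hg, el_P2] at hwe0
    have h20 : v0 = 20 := by
      refine eq_of_fixed hv0 hv0' fun p hp => ?_
      rw [← hxv]
      exact x_fixed h9 hw0 hx0 he0 hwe0 (cw2_mem hp).1
    refine ⟨g⁻¹, ?_, fun v => ?_⟩
    · rw [← h20, ← hxv, map_inv]; group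
    · have h1 := Fs_cj_iff geo_A_conj (phi g) (P := EJ) (w := w) (v := phi g * v * (phi g)⁻¹)
      have e1 : (phi g)⁻¹ * (phi g * v * (phi g)⁻¹) * phi g = v := by group
      rw [e1, hcj] at h1
      rw [← h1, Fs_eq hw0 he0 hwe0]
      constructor
      · rintro ⟨f, hf, h2⟩
        refine ⟨f, hf, ?_⟩
        rw [← h2, map_inv]; group
      · rintro ⟨f, hf, h2⟩
        refine ⟨f, hf, ?_⟩
        rw [h2, map_inv]; group

/-- the main statement at the point `EJ` -/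
theorem core (h9 : F9 geo)
    (hN : ∀ x ∈ Subgroup.normalizer (EJ : Set 𝒢), ∃ e ∈ EJ, ∃ k, x = e * phi k)
    {w w' x x' b b' : 𝒢} (hw : KB geo EJ w) (hw' : KB geo EJ w') (hx : IsX geo EJ w x)
    (hx' : IsX geo EJ w' x') (hb : b ∈ Fs geo EJ w) (hb' : b' ∈ Fs geo EJ w)
    (hbw' : b ∈ Fs geo EJ w') (hbw'' : b' ∈ Fs geo EJ w') (hxw : x' ∈ Fs geo EJ w)
    (h1 : b ≠ 1) (h1' : b' ≠ 1) (hne : b ≠ b') (hty : ¬ TyA geo b b') : x = x' := by
  obtain ⟨g, hg1, hg2⟩ := exists_frame h9 hN hw hx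
  obtain ⟨k, hk1, hk2⟩ := exists_frame h9 hN hw' hx'
  have hR : ∀ c, c ∈ Fs geo EJ w' → RR x' c := by
    intro c hc
    obtain ⟨f, hf, rfl⟩ := (hk2 c).1 hc
    rw [hk1]
    exact RR_conj (phi_mem k) (RR_twenty hf)
  obtain ⟨β, hβ, hbβ⟩ := (hg2 b).1 hb
  obtain ⟨β', hβ', hbβ'⟩ := (hg2 b').1 hb'
  obtain ⟨ξ, hξ, hxξ⟩ := (hg2 x').1 hxw
  have hback : ∀ {a c : ℕ}, RR (phi g * V a * (phi g)⁻¹) (phi g * V c * (phi g)⁻¹) →
      RR (V a) (V c) := by
    intro a c h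
    have h2 := RR_conj (phi_mem g⁻¹) h
    have e1 : ∀ u, phi g⁻¹ * (phi g * u * (phi g)⁻¹) * (phi g⁻¹)⁻¹ = u := by
      intro u
      rw [map_inv]; group
    rwa [e1, e1] at h2
  have r1 := hR b hbw'
  have r2 := hR b' hbw''
  rw [hxξ, hbβ] at r1
  rw [hxξ, hbβ'] at r2
  have o1 := onl_of_RR hξ hβ (hback r1)
  have o2 := onl_of_RR hξ hβ' (hback r2)
  have z0 : ∀ {a : ℕ} {c : 𝒢}, c ≠ 1 → c = phi g * V a * (phi g)⁻¹ → a ≠ 0 := by
    rintro a c hc rfl rfl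
    apply hc
    rw [V_zero]; group
  have o3 : onl β β' = false := by
    rcases hc : onl β β' with _ | _
    · rfl
    · exfalso
      apply hty
      rw [hbβ, hbβ']
      refine TyA_cj geo_L_conj (phi g) (TyA_of_onl (z0 h1 hbβ) (z0 h1' hbβ') ?_ hc)
      rintro rfl
      exact hne (hbβ.trans hbβ'.symm)
  have h20 := eq_of_onl hβ hβ' hξ o3 o1 o2 (z0 hx'.ne hxξ)
  rw [hxξ, h20]
  exact hg1

/-- **F11** from the structure of the normalizer of `EJ` -/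
theorem f11_of (hN : ∀ x ∈ Subgroup.normalizer (EJ : Set 𝒢), ∃ e ∈ EJ, ∃ k, x = e * phi k)
    (h9 : F9 geo) : F11 geo := by
  rintro _ E ⟨g, rfl⟩ hE hA hEn b b' hbE hbE' hbP hbP' hb1 hb1' hbb hty w w' hwE hwE' hwP hwP' -
    hw hw' - x x' - hx hx' - - hxE' -
  have key : ∀ {u c : 𝒢}, u ∈ E → u ∉ cj g EJ → c ∈ E → c ∈ cj g EJ → c ≠ 1 →
      c ∈ Fs geo (cj g EJ) u := by
    intro u c hu huP hc hcP hc1
    refine ⟨hcP, hE.comm c hc u hu, Or.inr ⟨hA c hc hc1, hA _ (E.mul_mem hc hu) fun h => huP ?_⟩⟩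
    have h2 : u = c⁻¹ := (inv_eq_of_mul_eq_one_right h).symm
    rw [h2]
    exact Subgroup.inv_mem _ hcP
  have hxP' : x' ∈ cj g EJ := hx'.mem.1
  have T : ∀ {u c : 𝒢}, c ∈ Fs geo (cj g EJ) u → g⁻¹ * c * g⁻¹⁻¹ ∈ Fs geo EJ (g⁻¹ * u * g⁻¹⁻¹) := by
    intro u c h
    have h1 := Fs_cj geo_A_conj g⁻¹ h
    rwa [cj_inv_cj] at h1
  have K : ∀ {u : 𝒢}, KB geo (cj g EJ) u → KB geo EJ (g⁻¹ * u * g⁻¹⁻¹) := by
    intro u h
    have h1 := KB_cj geo_A_conj geo_L_conj g⁻¹ h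
    rwa [cj_inv_cj] at h1
  have I : ∀ {u c : 𝒢}, IsX geo (cj g EJ) u c → IsX geo EJ (g⁻¹ * u * g⁻¹⁻¹) (g⁻¹ * c * g⁻¹⁻¹) := by
    intro u c h
    have h1 := IsX_cj geo_A_conj geo_L_conj g⁻¹ h
    rwa [cj_inv_cj] at h1
  have hinj : ∀ {a c : 𝒢}, g⁻¹ * a * g⁻¹⁻¹ = g⁻¹ * c * g⁻¹⁻¹ → a = c := fun h =>
    mul_left_cancel (mul_right_cancel h)
  have hone : ∀ {a : 𝒢}, a ≠ 1 → g⁻¹ * a * g⁻¹⁻¹ ≠ 1 := fun h h2 => h (hinj (h2.trans (by group)))
  apply hinj
  refine core h9 hN (K hw) (K hw') (I hx) (I hx') (T (key hwE hwP hbE hbP hb1))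
    (T (key hwE hwP hbE' hbP' hb1')) (T (key hwE' hwP' hbE hbP hb1))
    (T (key hwE' hwP' hbE' hbP' hb1')) (T (key hwE hwP hxE' hxP' hx'.ne)) (hone hb1) (hone hb1')
    (fun h => hbb (hinj h)) fun h => hty ?_
  have h1 := TyA_cj geo_L_conj g h
  have e1 : ∀ u : 𝒢, g * (g⁻¹ * u * g⁻¹⁻¹) * g⁻¹ = u := fun u => by group
  rwa [e1, e1] at h1

end Cfsg.Agent.H795.JM
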