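import Cfsg.Agent.H860.JM.Basic
import Cfsg.Agent.H795.JM.F11B

/-!
# The fact `F11` of the 2-local geometry of `J4` (helper795, S5580, JM-F11)
-/

set_option autoImplicit false

open Cfsg

namespace Cfsg.Agent.H795.JM

open Cfsg.Agent.H860.JM

/-- **F11** -/
theorem f11 (h9 : F9 geo) : F11 geo :=
  f11_of (fun x hx => by
    rw [NEJ_eq] at hx
    exact Cfsg.Agent.H858.VK.mem_B.1 hx) h9

end Cfsg.Agent.H795.JM
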