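import Cfsg.Agent.H860.JM.Defs
import Cfsg.Agent.H795.JM.Lab
import Cfsg.Agent.H795.JM.Equi

/-!
# The fact `F11` of the 2-local geometry of `J4` (helper795, S5580, JM-F11)

For `w` of kind B at `EJ` the image of `w` in `M24` is of type `2^12` and `F_w`, `x_w` are the images of `fb`, `20`
under an element of `M24` (`exists_frame`).  In `F_w` the elements related to both elements of a pair of type b are
`1` and `x_w` (`onl_two`), and all elements of `F_w` are related to `x_w` (`rr_twenty`).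
-/

set_option autoImplicit false

open Cfsg

namespace Cfsg.Agent.H795.JM

open Cfsg.Agent.H860.JM
open Cfsg.Agent.J4.Invol (EJ s d)
open Cfsg.Agent.J4.Rep112 Cfsg.Agent.J4.Pres Cfsg.Agent.J4.M24Hom Cfsg.Agent.J4.Nodes Cfsg.Agent.J4.Beta
open Cfsg.Agent.J4.Classes Cfsg.Agent.J4.ClassesData Cfsg.Agent.J4.ClassesAbs
open Cfsg.Agent.J4.M24InvolData Cfsg.Agent.J4.Lower
open Cfsg.Agent.H858 Cfsg.Agent.H858.VK Cfsg.Agent.H858.Data

/-- the group `Spor.J4` -/
local notation "𝒢" => Cfsg.Spor.J4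

/-! ### Classes of labels -/

theorem geo_A_conj (g u : 𝒢) (h : geo.A u) : geo.A (g * u * g⁻¹) :=
  IsConj.trans h (isConj_iff.2 ⟨g, rfl⟩)

theorem geo_B_conj (g u : 𝒢) (h : geo.B u) : geo.B (g * u * g⁻¹) :=
  IsConj.trans h (isConj_iff.2 ⟨g, rfl⟩)

theorem geo_L_conj (g : 𝒢) (D : Subgroup 𝒢) (h : geo.Ln D) : geo.Ln (cj g D) := by
  obtain ⟨k, rfl⟩ := h
  exact ⟨g * k, cj_cj g k _⟩

theorem geo_disj {u : 𝒢} (h1 : geo.A u) (h2 : geo.B u) : False :=
  Cfsg.Agent.J4.Invol.not_isConj_s_d (IsConj.trans h1 (IsConj.symm h2))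

theorem rho_s' : rho s = beta qs 1024 := Cfsg.Agent.J4.Invol.rho_s
theorem rho_d' : rho d = beta qs 5 := Cfsg.Agent.J4.Invol.rho_d

theorem conj_label {v : ℕ} (hv : v < 2048) (h0 : v ≠ 0) :
    ∃ m : M24, V v = phi m * (if isB v = true then d else s) * (phi m)⁻¹ := by
  have h1 := orb_ok
  unfold orbOk at h1
  rw [Bool.and_eq_true, Bool.and_eq_true, List.all_eq_true, List.all_eq_true] at h1
  have h2 := h1.1.2 v (List.mem_range.mpr hv)
  rw [Bool.or_eq_true, Nat.beq_eq, Bool.and_eq_true, Nat.blt_eq, Nat.beq_eq] at h2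
  rcases h2 with h2 | ⟨h2, h3⟩
  · exact absurd h2 h0
  · obtain ⟨m, hm⟩ := Cfsg.Agent.J4.Invol.conj_arr hyp _ h2
    rw [h3] at hm
    refine ⟨m, rho_injective ?_⟩
    rw [map_mul, map_mul, map_inv, rho_V, hm]
    have h4 := pos_check
    rw [List.all_eq_true] at h4
    have h5 := h4 v (List.mem_range.mpr hv)
    have h6 : Nat.beq v 0 = false := by
      rw [← Bool.not_eq_true, Nat.beq_eq]; exact h0
    rw [h6, cond_false] at h5
    rcases hb : isB v with _ | _
    · rw [hb, cond_false, Nat.blt_eq] at h5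
      rw [if_pos h5, if_neg Bool.false_ne_true, rho_s']
      rfl
    · rw [hb, cond_true, Nat.ble_eq] at h5
      rw [if_neg (by omega), if_pos rfl, rho_d']
      rfl

theorem geo_A_V {v : ℕ} (hv : v < 2048) (h0 : v ≠ 0) (hb : isB v = false) : geo.A (V v) := by
  obtain ⟨m, hm⟩ := conj_label hv h0
  rw [hb, if_neg Bool.false_ne_true] at hm
  rw [hm]
  exact geo_A_conj _ _ (IsConj.refl s)

theorem geo_B_V {v : ℕ} (hv : v < 2048) : geo.B (V v) ↔ isB v = true := by
  have hz : isB 0 = false := by decide +kernel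
  rcases Nat.eq_zero_or_pos v with rfl | h0
  · rw [hz]
    refine ⟨fun h => ?_, fun h => absurd h Bool.false_ne_true⟩
    exfalso
    obtain ⟨g, hg⟩ := isConj_iff.1 (show IsConj d (V 0) from h)
    rw [V_zero] at hg
    have h1 : d = 1 := by
      have h2 : d = g⁻¹ * (g * d * g⁻¹) * g := by group
      rw [h2, hg]; group
    have h3 := rho_d'
    rw [h1, map_one] at h3
    have h4 : beta qs 0 = beta qs 5 := by rw [beta_zero]; exact h3
    exact absurd (beta_inj hyp.sq hyp.comm hyp.ind (by rw [qs_len]; norm_num)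
      (by rw [qs_len]; norm_num) h4) (by norm_num)
  · constructor
    · intro h
      rcases hb : isB v with _ | _
      · exact (geo_disj (geo_A_V hv h0.ne' hb) h).elim
      · rfl
    · intro hb
      obtain ⟨m, hm⟩ := conj_label hv h0.ne'
      rw [hb, if_pos rfl] at hm
      rw [hm]
      exact geo_B_conj _ _ (IsConj.refl d)

theorem V_ne {v : ℕ} (hv : v < 2048) (h0 : v ≠ 0) : V v ≠ 1 := by
  rw [← V_zero]
  exact fun h => h0 (V_inj hv (by norm_num) h)

/-! ### The relation `R` -/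

/-- there is a duad `e` with `a e`, `b e`, `a b e` duads -/
def RR (a b : 𝒢) : Prop := ∃ e, e ∈ EJ ∧ geo.B e ∧ geo.B (a * e) ∧ geo.B (b * e) ∧ geo.B (a * b * e)

theorem phi_mem (m : M24) : phi m ∈ Subgroup.normalizer (EJ : Set 𝒢) := phi_norm ⟨m, rfl⟩

theorem conj_mem {g x : 𝒢} (hg : g ∈ Subgroup.normalizer (EJ : Set 𝒢)) (hx : x ∈ EJ) :
    g * x * g⁻¹ ∈ EJ := (Subgroup.mem_normalizer_iff.1 hg x).1 hx

theorem RR_conj {g a b : 𝒢} (hg : g ∈ Subgroup.normalizer (EJ : Set 𝒢)) (h : RR a b) :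
    RR (g * a * g⁻¹) (g * b * g⁻¹) := by
  obtain ⟨e, h1, h2, h3, h4, h5⟩ := h
  refine ⟨g * e * g⁻¹, conj_mem hg h1, geo_B_conj _ _ h2, ?_, ?_, ?_⟩
  · have : g * a * g⁻¹ * (g * e * g⁻¹) = g * (a * e) * g⁻¹ := by group
    rw [this]; exact geo_B_conj _ _ h3
  · have : g * b * g⁻¹ * (g * e * g⁻¹) = g * (b * e) * g⁻¹ := by group
    rw [this]; exact geo_B_conj _ _ h4
  · have : g * a * g⁻¹ * (g * b * g⁻¹) * (g * e * g⁻¹) = g * (a * b * e) * g⁻¹ := by group
    rw [this]; exact geo_B_conj _ _ h5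

theorem xor_lt {a b : ℕ} (ha : a < 2048) (hb : b < 2048) : a ^^^ b < 2048 :=
  Nat.xor_lt_two_pow (n := 11) ha hb

theorem mem_dl {e : ℕ} (h : e ∈ dl) : e < 2048 ∧ isB e = true := by
  have h1 := dl_check2
  rw [List.all_eq_true] at h1
  have h2 := h1 e h
  rcases hb : Nat.blt e 2048 with _ | _
  · rw [hb] at h2; exact absurd h2 Bool.false_ne_true
  · rw [hb] at h2
    rw [Nat.blt_eq] at hb
    exact ⟨hb, h2⟩

theorem mem_dl_of {e : ℕ} (h : e < 2048) (hb : isB e = true) : e ∈ dl := by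
  have h1 := dl_check
  rw [List.all_eq_true] at h1
  have h2 := h1 e (List.mem_range.2 h)
  rw [hb, cond_true, List.any_eq_true] at h2
  obtain ⟨x, hx, h3⟩ := h2
  rw [Nat.beq_eq] at h3
  rwa [h3]

theorem rr_iff {a b e : ℕ} (ha : a < 2048) (hb : b < 2048) (he : e < 2048) : rr a b e = true ↔
    geo.B (V a * V e) ∧ geo.B (V b * V e) ∧ geo.B (V a * V b * V e) := by
  rw [← V_xor, ← V_xor, ← V_xor, ← V_xor, geo_B_V (xor_lt ha he), geo_B_V (xor_lt hb he),
    geo_B_V (xor_lt (xor_lt ha hb) he)]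
  change cond (isB (a ^^^ e)) (cond (isB (b ^^^ e)) (isB ((a ^^^ b) ^^^ e)) false) false = true ↔ _
  rcases isB (a ^^^ e) with _ | _ <;> rcases isB (b ^^^ e) with _ | _ <;>
    rcases isB ((a ^^^ b) ^^^ e) with _ | _ <;> simp

theorem RR_V {a b : ℕ} (ha : a < 2048) (hb : b < 2048) :
    RR (V a) (V b) ↔ ∃ e ∈ dl, rr a b e = true := by
  constructor
  · rintro ⟨_, h1, h2, h3⟩
    obtain ⟨e, he, rfl⟩ := mem_EJ.1 h1
    exact ⟨e, mem_dl_of he ((geo_B_V he).1 h2), (rr_iff ha hb he).2 h3⟩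
  · rintro ⟨e, he, h⟩
    obtain ⟨h1, h2⟩ := mem_dl he
    exact ⟨V e, V_mem e, (geo_B_V h1).2 h2, (rr_iff ha hb h1).1 h⟩

theorem mem_fb {f : ℕ} (h : f ∈ fb) : f < 2048 ∧ isB f = false ∧ ∃ p, f = p ^^^ lin Ax p := by
  have h1 := fb_check2
  rw [List.all_eq_true] at h1
  have h2 := h1 f h
  rcases hb : Nat.blt f 2048 with _ | _
  · rw [hb] at h2; exact absurd h2 Bool.false_ne_true
  · rw [hb, cond_true] at h2
    rcases hc : isB f with _ | _
    · rw [hc, cond_false, List.any_eq_true] at h2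
      obtain ⟨p, -, hp⟩ := h2
      rw [Nat.blt_eq] at hb
      exact ⟨hb, rfl, p, (Nat.eq_of_beq_eq_true hp).symm⟩
    · rw [hc] at h2; exact absurd h2 Bool.false_ne_true

theorem mem_fb_xor {v : ℕ} (h : v < 2048) : v ^^^ lin Ax v ∈ fb := by
  have h1 := fb_check
  rw [List.all_eq_true] at h1
  have h2 := h1 v (List.mem_range.2 h)
  rw [List.any_eq_true] at h2
  obtain ⟨x, hx, h3⟩ := h2
  rw [Nat.beq_eq] at h3
  have h4 : v ^^^ lin Ax v = x := h3
  rwa [h4]

/-- all elements of `fb` are related to `20` -/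
theorem RR_twenty {f : ℕ} (h : f ∈ fb) : RR (V 20) (V f) := by
  have h1 := rr_twenty
  rw [List.all_eq_true] at h1
  have h2 := h1 f h
  rw [List.any_eq_true] at h2
  exact (RR_V (by norm_num) (mem_fb h).1).2 h2

/-- related elements of `fb` are on a line -/
theorem onl_of_RR {a b : ℕ} (ha : a ∈ fb) (hb : b ∈ fb) (h : RR (V a) (V b)) : onl a b = true := by
  have h1 := rr_onl
  rw [List.all_eq_true] at h1
  have h2 := h1 a ha
  rw [List.all_eq_true] at h2
  have h3 := h2 b hb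
  rcases hc : onl a b with _ | _
  · exfalso
    rw [hc, cond_false, List.all_eq_true] at h3
    obtain ⟨e, he, h4⟩ := (RR_V (mem_fb ha).1 (mem_fb hb).1).1 h
    have h5 := h3 e he
    rw [h4] at h5
    exact absurd h5 Bool.false_ne_true
  · rfl

/-- elements on a line are of type a -/
theorem TyA_of_onl {a b : ℕ} (ha : a ≠ 0) (hb : b ≠ 0) (hab : a ≠ b) (h : onl a b = true) :
    TyA geo (V a) (V b) := by
  unfold onl at h
  have e1 : Nat.beq a 0 = false := by rw [← Bool.not_eq_true, Nat.beq_eq]; exact ha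
  have e2 : Nat.beq b 0 = false := by rw [← Bool.not_eq_true, Nat.beq_eq]; exact hb
  have e3 : Nat.beq a b = false := by rw [← Bool.not_eq_true, Nat.beq_eq]; exact hab
  rw [e1, e2, e3, cond_false, cond_false, cond_false, List.any_eq_true] at h
  obtain ⟨l, hl, h1⟩ := h
  have key : ∀ c, l.2.any (Nat.beq c) = true → V c ∈ cj (phi (wordG l.1)) Loc7.Z := by
    intro c hc
    rw [List.any_eq_true] at hc
    obtain ⟨c', hc', h2⟩ := hc
    rw [Nat.beq_eq] at h2
    subst h2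
    have h3 := lns_check
    rw [List.all_eq_true] at h3
    have h4 := h3 l hl
    rw [List.all_eq_true] at h4
    have h5 := h4 c hc'
    rw [List.any_eq_true] at h5
    obtain ⟨u, -, h6⟩ := h5
    rw [Nat.beq_eq] at h6
    refine ⟨V (lin zl u), Loc7.V_mem_Z u rfl, ?_⟩
    show phi (wordG l.1) * V (lin zl u) * (phi (wordG l.1))⁻¹ = V c
    apply rho_injective
    rw [map_mul, map_mul, map_inv, rho_V, rho_V, h6]
    exact act_word l.1 (lin zl u)
  rcases hc : l.2.any (Nat.beq a) with _ | _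
  · rw [hc] at h1; exact absurd h1 Bool.false_ne_true
  · rw [hc, cond_true] at h1
    exact ⟨_, ⟨_, rfl⟩, key a hc, key b h1⟩

theorem eq_of_onl {a b v : ℕ} (ha : a ∈ fb) (hb : b ∈ fb) (hv : v ∈ fb) (h : onl a b = false)
    (h1 : onl v a = true) (h2 : onl v b = true) (h0 : v ≠ 0) : v = 20 := by
  have h3 := onl_two
  rw [List.all_eq_true] at h3
  have h4 := h3 a ha
  rw [List.all_eq_true] at h4
  have h5 := h4 b hb
  rw [h, cond_false, List.all_eq_true] at h5
  have h6 := h5 v hv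
  have e1 : Nat.beq v 0 = false := by rw [← Bool.not_eq_true, Nat.beq_eq]; exact h0
  rw [e1, cond_false, h1, cond_true, h2, cond_true] at h6
  rcases hc : Nat.beq v 20 with _ | _
  · rw [hc] at h6; exact absurd h6 Bool.false_ne_true
  · exact Nat.eq_of_beq_eq_true hc

end Cfsg.Agent.H795.JM
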